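import Cfsg.Agent.Char.BrauerElem
import Cfsg.Agent.Blocks.PPart
import Mathlib.GroupTheory.GroupAction.Quotient
import Mathlib.GroupTheory.PGroup
import Mathlib.GroupTheory.SchurZassenhaus

/-!
# Brauer's induction theorem and characterisation of characters
-/

namespace Cfsg.Agent.Char

universe u

variable {G : Type u} [Group G]

/-- The number of cosets of `H` fixed by `g`, as an integer function. -/
noncomputable def permFix (H : Subgroup G) : G → ℤ :=
  fun g => (Nat.card {x : G ⧸ H // g • x = x} : ℤ)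

/-- The additive span of the permutation characters on cosets of quasi-elementary subgroups. -/
def qSpan (G : Type u) [Group G] : AddSubgroup (G → ℤ) :=
  AddSubgroup.closure {f | ∃ (H : Subgroup G) (q : ℕ), q.Prime ∧ IsQuasiElem q H ∧ f = permFix H}

theorem isQuasiElem_of_equiv {H : Type*} [Group H] {K : Type*} [Group K] (e : H ≃* K) {p : ℕ}
    (h : IsQuasiElem p H) : IsQuasiElem p K := by
  obtain ⟨C, hC, hcyc, hcop, k, hk⟩ := h
  refine ⟨C.map e.toMonoidHom, hC.map _ e.surjective, ?_, ?_, k, ?_⟩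
  · exact isCyclic_of_surjective (C.equivMapOfInjective e.toMonoidHom e.injective)
      (C.equivMapOfInjective e.toMonoidHom e.injective).surjective
  · rwa [← Nat.card_congr (C.equivMapOfInjective e.toMonoidHom e.injective).toEquiv]
  · rw [← hk]; exact Subgroup.index_map_equiv C e

variable [Finite G]

theorem card_fix_mem_qSpan {X : Type*} [MulAction G X] [DecidableEq X]
    (hX : ∀ x : X, ∃ q : ℕ, q.Prime ∧ IsQuasiElem q (MulAction.stabilizer G x))
    (S : Finset X) (hS : ∀ g : G, ∀ x ∈ S, g • x ∈ S) :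
    (fun g : G => ((S.filter fun x => g • x = x).card : ℤ)) ∈ qSpan G := by
  classical
  induction S using Finset.strongInduction with
  | H S ih =>
    rcases S.eq_empty_or_nonempty with rfl | ⟨x, hx⟩
    · simp only [Finset.filter_empty, Finset.card_empty, Nat.cast_zero]
      exact zero_mem (qSpan G)
    · haveI := Fintype.ofFinite G
      set O : Finset X := Finset.univ.image fun h : G => h • x with hO
      have hOS : O ⊆ S := by
        intro y hy
        obtain ⟨h, -, rfl⟩ := Finset.mem_image.1 hy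
        exact hS h x hx
      have hxO : x ∈ O := Finset.mem_image.2 ⟨1, Finset.mem_univ _, one_smul G x⟩
      have hinv : ∀ g : G, ∀ y ∈ S \ O, g • y ∈ S \ O := by
        intro g y hy
        rw [Finset.mem_sdiff] at hy ⊢
        refine ⟨hS g y hy.1, fun h => hy.2 ?_⟩
        obtain ⟨k, -, hk⟩ := Finset.mem_image.1 h
        exact Finset.mem_image.2 ⟨g⁻¹ * k, Finset.mem_univ _, by rw [mul_smul, hk, inv_smul_smul]⟩
      have h1 := ih (S \ O) (Finset.sdiff_ssubset hOS ⟨x, hxO⟩) hinv
      obtain ⟨q, hq, hqe⟩ := hX x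
      have h2 : permFix (MulAction.stabilizer G x) ∈ qSpan G :=
        AddSubgroup.subset_closure ⟨_, q, hq, hqe, rfl⟩
      convert add_mem h1 h2 using 1
      funext g
      have hsplit : S.filter (fun y => g • y = y)
          = ((S \ O).filter fun y => g • y = y) ∪ (O.filter fun y => g • y = y) := by
        rw [← Finset.filter_union, Finset.sdiff_union_of_subset hOS]
      have hO' : ((O.filter fun y => g • y = y).card : ℤ) = permFix (MulAction.stabilizer G x) g := by
        unfold permFix
        norm_cast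
        rw [← Nat.card_eq_finsetCard]
        symm
        refine Nat.card_congr (Equiv.ofBijective
          (fun z : {z : G ⧸ MulAction.stabilizer G x // g • z = z} =>
            (⟨MulAction.ofQuotientStabilizer G x z.1, ?_⟩ :
              ↥(O.filter fun y => g • y = y))) ⟨?_, ?_⟩)
        · refine Finset.mem_filter.2 ⟨?_, ?_⟩
          · obtain ⟨h, hh⟩ := Quotient.exists_rep z.1
            rw [← hh]
            exact Finset.mem_image.2 ⟨h, Finset.mem_univ _, rfl⟩
          · rw [← MulAction.ofQuotientStabilizer_smul, z.2]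
        · intro a b hab
          exact Subtype.ext (MulAction.injective_ofQuotientStabilizer G x (congrArg Subtype.val hab :))
        · rintro ⟨y, hy⟩
          obtain ⟨hy1, hy2⟩ := Finset.mem_filter.1 hy
          obtain ⟨h, -, rfl⟩ := Finset.mem_image.1 hy1
          exact ⟨⟨QuotientGroup.mk h, MulAction.injective_ofQuotientStabilizer G x
            (by rw [MulAction.ofQuotientStabilizer_smul]; exact hy2)⟩, rfl⟩
      have hdisj : Disjoint ((S \ O).filter fun y => g • y = y) (O.filter fun y => g • y = y) :=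
        Finset.disjoint_filter_filter Finset.sdiff_disjoint
      show ((S.filter fun y => g • y = y).card : ℤ) = _
      rw [hsplit, Finset.card_union_of_disjoint hdisj, Pi.add_apply, Nat.cast_add, hO']

theorem qSpan_gen_mul (H K : Subgroup G) {q : ℕ} (hq : q.Prime) (hH : IsQuasiElem q H) :
    permFix H * permFix K ∈ qSpan G := by
  classical
  haveI := Fintype.ofFinite (G ⧸ H)
  haveI := Fintype.ofFinite (G ⧸ K)
  have h := card_fix_mem_qSpan (G := G) (X := (G ⧸ H) × (G ⧸ K)) ?_ Finset.univ
    (fun g x _ => Finset.mem_univ _)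
  · convert h using 1
    funext g
    unfold permFix
    simp only [Pi.mul_apply]
    rw [← Nat.cast_mul, ← Nat.card_prod, ← Fintype.card_subtype, ← Nat.card_eq_fintype_card]
    congr 1
    refine Nat.card_congr ⟨fun z => ⟨(z.1.1, z.2.1), Prod.ext z.1.2 z.2.2⟩,
      fun z => (⟨z.1.1, congrArg Prod.fst z.2⟩, ⟨z.1.2, congrArg Prod.snd z.2⟩),
      fun _ => rfl, fun _ => rfl⟩
  · rintro ⟨a, b⟩
    obtain ⟨g, rfl⟩ := QuotientGroup.mk_surjective a
    refine ⟨q, hq, ?_⟩
    have hle : MulAction.stabilizer G ((QuotientGroup.mk g : G ⧸ H), b)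
        ≤ MulAction.stabilizer G (QuotientGroup.mk g : G ⧸ H) := fun z hz =>
      congrArg Prod.fst (MulAction.mem_stabilizer_iff.1 hz)
    have hst : IsQuasiElem q (MulAction.stabilizer G (QuotientGroup.mk g : G ⧸ H)) := by
      have : MulAction.stabilizer G (QuotientGroup.mk g : G ⧸ H)
          = H.map (MulAut.conj g).toMonoidHom := by
        have h1 := MulAction.stabilizer_smul_eq_stabilizer_map_conj g (QuotientGroup.mk 1 : G ⧸ H)
        rw [MulAction.stabilizer_quotient] at h1
        rw [← h1]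
        congr 1
        show _ = QuotientGroup.mk (g * 1)
        rw [mul_one]
      rw [this]
      exact isQuasiElem_of_equiv
        (H.equivMapOfInjective (MulAut.conj g).toMonoidHom (MulAut.conj g).injective) hH
    exact isQuasiElem_of_equiv (Subgroup.subgroupOfEquivOfLe hle)
      (isQuasiElem_subgroup hq hst _)

theorem qSpan_mul {f f' : G → ℤ} (hf : f ∈ qSpan G) (hf' : f' ∈ qSpan G) :
    f * f' ∈ qSpan G := by
  induction hf using AddSubgroup.closure_induction with
  | mem f hf =>
    obtain ⟨H, q, hq, hH, rfl⟩ := hf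
    induction hf' using AddSubgroup.closure_induction with
    | mem f' hf' =>
      obtain ⟨K, r, -, -, rfl⟩ := hf'
      exact qSpan_gen_mul H K hq hH
    | zero => rw [mul_zero]; exact zero_mem _
    | add a b _ _ ha hb => rw [mul_add]; exact add_mem ha hb
    | neg a _ ha => rw [mul_neg]; exact neg_mem ha
  | zero => rw [zero_mul]; exact zero_mem _
  | add a b _ _ ha hb => rw [add_mul]; exact add_mem ha hb
  | neg a _ ha => rw [neg_mul]; exact neg_mem ha

theorem exists_qSpan_not_dvd {q : ℕ} (hq : q.Prime) (g : G) :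
    ∃ f ∈ qSpan G, ¬ (q : ℤ) ∣ f g := by
  classical
  haveI : Fact q.Prime := ⟨hq⟩
  obtain ⟨u, v, huv, hcomm, ⟨i, hu⟩, hv, -, hvg⟩ := Blocks.exists_pPart hq g
  set C : Subgroup G := Subgroup.zpowers v with hC
  set N : Subgroup G := Subgroup.normalizer (C : Set G) with hN
  have hCN : C ≤ N := Subgroup.le_normalizer
  have huN : u ∈ N := by
    refine Subgroup.mem_normalizer_iff.2 fun y => ?_
    rw [hC, Subgroup.mem_zpowers_iff, Subgroup.mem_zpowers_iff]
    have hcj : ∀ m : ℤ, u * v ^ m * u⁻¹ = v ^ m := fun m => by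
      rw [(hcomm.zpow_right m).eq, mul_inv_cancel_right]
    constructor
    · rintro ⟨m, rfl⟩; exact ⟨m, (hcj m).symm⟩
    · rintro ⟨m, hm⟩
      refine ⟨m, ?_⟩
      have := hcj m
      rw [← mul_right_cancel_iff (a := u⁻¹), ← mul_left_cancel_iff (a := u), ← mul_assoc, this, hm,
        mul_assoc]
  set C' : Subgroup N := C.subgroupOf N with hC'
  haveI : C'.Normal := Subgroup.normal_in_normalizer
  obtain ⟨S, hS⟩ := ((Blocks.isPGroup_zpowers (p := q)
    (show orderOf (⟨u, huN⟩ : N) = q ^ i by rw [Subgroup.orderOf_mk]; exact hu)).map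
      (QuotientGroup.mk' C')).exists_le_sylow
  set H0 : Subgroup N := (S : Subgroup (N ⧸ C')).comap (QuotientGroup.mk' C') with hH0
  set H : Subgroup G := H0.map N.subtype with hH
  have hC'H0 : C' ≤ H0 := by
    intro c hc
    show QuotientGroup.mk' C' c ∈ (S : Subgroup (N ⧸ C'))
    have : QuotientGroup.mk' C' c = 1 := (QuotientGroup.eq_one_iff c).2 hc
    rw [this]; exact one_mem _
  -- elements of `H` of order prime to `q` lie in `C`
  have hqC : ∀ y : G, y ∈ H → ¬ q ∣ orderOf y → y ∈ C := by
    intro y hy hqy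
    obtain ⟨z, hz, rfl⟩ := hy
    obtain ⟨j, hj⟩ := (S.2 ⟨QuotientGroup.mk' C' z, hz⟩)
    have h1 : orderOf (QuotientGroup.mk' C' z) ∣ q ^ j :=
      orderOf_dvd_of_pow_eq_one (congrArg Subtype.val hj)
    have h2 : orderOf (QuotientGroup.mk' C' z) ∣ orderOf (z : G) := by
      rw [Subgroup.orderOf_coe]; exact orderOf_map_dvd _ z
    have h3 : QuotientGroup.mk' C' z = 1 := orderOf_eq_one_iff.1
      (Nat.eq_one_of_dvd_coprimes ((hq.coprime_iff_not_dvd.2 hqy).pow_left j) h1 h2)
    exact (QuotientGroup.eq_one_iff z).1 h3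
  have hqe : IsQuasiElem q H := by
    refine isQuasiElem_of_equiv (H0.equivMapOfInjective N.subtype N.subtype_injective)
      ⟨C'.subgroupOf H0, inferInstance, ?_, ?_, ?_⟩
    · let f : C'.subgroupOf H0 →* C :=
        { toFun := fun x => ⟨(((x : H0) : N) : G), x.2⟩
          map_one' := rfl
          map_mul' := fun _ _ => rfl }
      refine isCyclic_of_injective f fun a b hab => ?_
      exact Subtype.ext (Subtype.ext (Subtype.ext (congrArg Subtype.val hab :)))
    · rw [Nat.card_congr (Subgroup.subgroupOfEquivOfLe hC'H0).toEquiv,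
        Nat.card_congr (Subgroup.subgroupOfEquivOfLe hCN).toEquiv, Nat.card_zpowers]
      exact Nat.coprime_comm.1 (hq.coprime_iff_not_dvd.2 hv)
    · refine ⟨(Nat.card (N ⧸ C')).factorization q, ?_⟩
      rw [← S.card_eq_multiplicity]
      have := Subgroup.relIndex_comap (⊥ : Subgroup (N ⧸ C')) (QuotientGroup.mk' C') H0
      rw [MonoidHom.comap_bot, QuotientGroup.ker_mk',
        Subgroup.map_comap_eq_self_of_surjective (QuotientGroup.mk'_surjective C'),
        Subgroup.relIndex_bot_left] at this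
      exact this
  refine ⟨permFix H, AddSubgroup.subset_closure ⟨H, q, hq, hqe, rfl⟩, ?_⟩
  unfold permFix
  rw [Int.natCast_dvd_natCast]
  -- the fixed points of `v`
  have hvmem : v ∈ H := ⟨⟨v, hCN (Subgroup.mem_zpowers v)⟩,
    hC'H0 (Subgroup.mem_subgroupOf.2 (Subgroup.mem_zpowers v)), rfl⟩
  let X := {x : G ⧸ H // v • x = x}
  letI : MulAction (Subgroup.zpowers u) X :=
    { smul := fun w x => ⟨(w : G) • x.1, by
        obtain ⟨m, hm⟩ := w.2
        have hc : v * (w : G) = (w : G) * v := by
          rw [← show u ^ m = (w : G) from hm]; exact (hcomm.symm.zpow_right m).eq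
        rw [← mul_smul, hc, mul_smul, x.2]⟩
      one_smul := fun x => Subtype.ext (one_smul G x.1)
      mul_smul := fun a b x => Subtype.ext (mul_smul (a : G) (b : G) x.1) }
  have hXmem : ∀ y : G, v • (QuotientGroup.mk y : G ⧸ H) = QuotientGroup.mk y ↔ y ∈ N := by
    intro y
    constructor
    · intro h
      have h1 : (v * y)⁻¹ * y ∈ H := QuotientGroup.eq.1 h
      have h2 : y⁻¹ * v * y ∈ H := by
        have := H.inv_mem h1
        simpa [mul_assoc] using this
      have hord : orderOf (y⁻¹ * v * y) = orderOf v := by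
        have := MulEquiv.orderOf_eq (MulAut.conj y⁻¹) v
        simpa [mul_assoc] using this
      have h3 : y⁻¹ * v * y ∈ C := hqC _ h2 (by rw [hord]; exact hv)
      have heq : C.map (MulAut.conj y⁻¹).toMonoidHom = C := by
        refine Subgroup.eq_of_le_of_card_ge ?_ ?_
        · rw [hC, MonoidHom.map_zpowers, Subgroup.zpowers_le]
          simpa [mul_assoc] using h3
        · exact (Nat.card_congr
            (C.equivMapOfInjective _ (MulAut.conj y⁻¹).injective).toEquiv).le
      refine (Subgroup.inv_mem_iff N).1 (Subgroup.mem_normalizer_iff.2 fun z => ?_)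
      constructor
      · intro hz
        exact heq ▸ ⟨z, hz, by simp⟩
      · intro hz
        rw [← heq] at hz
        obtain ⟨w, hw, hwz⟩ := hz
        have : w = z := by simpa using hwz
        exact this ▸ hw
    · intro hy
      refine QuotientGroup.eq.2 ?_
      have h1 : y⁻¹ * v⁻¹ * y ∈ C := by
        have := (Subgroup.mem_normalizer_iff.1 (N.inv_mem hy) v⁻¹).1
          (C.inv_mem (Subgroup.mem_zpowers v))
        simpa using this
      have h2 : y⁻¹ * v⁻¹ * y ∈ H := ⟨⟨_, hCN h1⟩, hC'H0 (Subgroup.mem_subgroupOf.2 h1), rfl⟩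
      simpa [mul_assoc] using h2
  have hcard : Nat.card X = (S : Subgroup (N ⧸ C')).index := by
    rw [← Subgroup.index_comap_of_surjective (S : Subgroup (N ⧸ C'))
      (QuotientGroup.mk'_surjective C'), ← hH0, Subgroup.index_eq_card]
    symm
    let f : N ⧸ H0 → X := fun z => Quotient.liftOn' z
      (fun y => ⟨QuotientGroup.mk (y : G), (hXmem _).2 y.2⟩)
      (fun a b hab => Subtype.ext (QuotientGroup.eq.2
        ⟨a⁻¹ * b, QuotientGroup.leftRel_apply.1 hab, by simp⟩))
    refine Nat.card_congr (Equiv.ofBijective f ⟨?_, ?_⟩)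
    · intro a b
      refine Quotient.inductionOn₂' a b fun a b hab => Quotient.sound' ?_
      refine QuotientGroup.leftRel_apply.2 ?_
      obtain ⟨z, hz, hz'⟩ := QuotientGroup.eq.1 (congrArg Subtype.val hab :)
      have : z = a⁻¹ * b := Subtype.ext (by simpa using hz')
      exact this ▸ hz
    · rintro ⟨x, hx⟩
      obtain ⟨y, rfl⟩ := QuotientGroup.mk_surjective x
      exact ⟨QuotientGroup.mk (⟨y, (hXmem y).1 hx⟩ : N), rfl⟩
  have hmod := (Blocks.isPGroup_zpowers hu).card_modEq_card_fixedPoints X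
  have hfix : Nat.card (MulAction.fixedPoints (Subgroup.zpowers u) X)
      = Nat.card {x : G ⧸ H // g • x = x} := by
    refine Nat.card_congr ⟨fun z => ⟨z.1.1, ?_⟩, fun z => ⟨⟨z.1, ?_⟩, fun w => Subtype.ext ?_⟩,
      fun _ => rfl, fun _ => rfl⟩
    · rw [← huv, mul_smul, z.1.2]
      exact congrArg Subtype.val (z.2 ⟨u, Subgroup.mem_zpowers u⟩)
    · obtain ⟨m, hm⟩ := hvg
      rw [← hm]
      exact MulAction.mem_stabilizer_iff.1 (Subgroup.zpow_mem _ (MulAction.mem_stabilizer_iff.2 z.2) m)
    · show (w : G) • z.1 = z.1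
      have hug : u ∈ Subgroup.zpowers g := by
        have : u = g * v⁻¹ := by rw [← huv, mul_inv_cancel_right]
        rw [this]
        exact mul_mem (Subgroup.mem_zpowers g) (inv_mem hvg)
      exact MulAction.mem_stabilizer_iff.1
        ((Subgroup.zpowers_le.2 (MulAction.mem_stabilizer_iff.2 z.2))
          ((Subgroup.zpowers_le.2 hug) w.2))
  rw [← hfix]
  intro hdvd
  apply S.not_dvd_index
  rw [← hcard]
  exact (Nat.modEq_zero_iff_dvd.1 (hmod.trans (Nat.modEq_zero_iff_dvd.2 hdvd)))

theorem one_mem_qSpan : (1 : G → ℤ) ∈ qSpan G := by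
  classical
  haveI := Fintype.ofFinite G
  have h1 : ∀ g : G, ∃ f ∈ qSpan G, f g = 1 := by
    intro g
    obtain ⟨d, hd⟩ := Int.subgroup_cyclic ((qSpan G).map (Pi.evalAddMonoidHom (fun _ : G => ℤ) g))
    rw [← AddSubgroup.zmultiples_eq_closure] at hd
    by_cases hu : d.natAbs = 1
    · have hone : (1 : ℤ) ∈ (qSpan G).map (Pi.evalAddMonoidHom (fun _ : G => ℤ) g) := by
        rw [hd, Int.mem_zmultiples_iff]
        exact Int.natAbs_dvd_natAbs.1 (by simp [hu])
      obtain ⟨f, hf, hfg⟩ := hone
      exact ⟨f, hf, hfg⟩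
    · obtain ⟨q, hq, hqd⟩ := Nat.exists_prime_and_dvd hu
      obtain ⟨f, hf, hnd⟩ := exists_qSpan_not_dvd hq g
      have : f g ∈ AddSubgroup.zmultiples d := hd ▸ ⟨f, hf, rfl⟩
      exact absurd ((Int.natCast_dvd.2 hqd).trans (Int.mem_zmultiples_iff.1 this)) hnd
  have key : ∀ s : Finset G, ∃ f ∈ qSpan G, ∀ g ∈ s, f g = 1 := by
    intro s
    induction s using Finset.induction_on with
    | empty => exact ⟨0, zero_mem _, by simp⟩
    | @insert a s _ ih =>
      obtain ⟨f, hf, hfs⟩ := ih
      obtain ⟨e, he, hea⟩ := h1 a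
      refine ⟨f + e - f * e, sub_mem (add_mem hf he) (qSpan_mul hf he), fun g hg => ?_⟩
      rcases Finset.mem_insert.1 hg with rfl | hg
      · simp [hea]
      · simp [hfs g hg]
  obtain ⟨f, hf, h⟩ := key Finset.univ
  rwa [show (1 : G → ℤ) = f from funext fun g => (h g (Finset.mem_univ g)).symm]

variable [Fintype G]

theorem indFun_one_eq_permFix (H : Subgroup G) (g : G) :
    Cfsg.indFun H (fun _ : H => (1 : ℂ)) g = (permFix H g : ℂ) := by
  classical
  unfold permFix
  have h1 : ∀ x : G, Cfsg.extendByZero H (fun _ : H => (1 : ℂ)) (x⁻¹ * g * x)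
      = if g • (QuotientGroup.mk x : G ⧸ H) = QuotientGroup.mk x then 1 else 0 := by
    intro x
    have hiff : g • (QuotientGroup.mk x : G ⧸ H) = QuotientGroup.mk x ↔ x⁻¹ * g * x ∈ H := by
      show QuotientGroup.mk (g * x) = _ ↔ _
      rw [eq_comm, QuotientGroup.eq, mul_assoc]
    by_cases h : x⁻¹ * g * x ∈ H
    · rw [extendByZero_of_mem H _ h, if_pos (hiff.2 h)]
    · rw [extendByZero_of_not_mem H _ h, if_neg (mt hiff.1 h)]
  simp only [Cfsg.indFun, h1, Finset.sum_boole]
  have h2 : (Finset.univ.filter fun x : G => g • (QuotientGroup.mk x : G ⧸ H) = QuotientGroup.mk x).card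
      = Nat.card H * Nat.card {x : G ⧸ H // g • x = x} := by
    rw [← Fintype.card_subtype, ← Nat.card_eq_fintype_card, ← Nat.card_prod]
    exact Nat.card_congr ((Equiv.refl _).trans
      (QuotientGroup.preimageMkEquivSubgroupProdSet H {x : G ⧸ H | g • x = x}))
  rw [h2, Int.cast_natCast, Nat.cast_mul, ← mul_assoc,
    inv_mul_cancel₀ (by exact_mod_cast Nat.card_pos.ne'), one_mul]

/-- Brauer's induction theorem. -/
theorem one_mem_elemSpan : (fun _ : G => (1 : ℂ)) ∈ elemSpan G := by
  have key : ∀ f : G → ℤ, f ∈ qSpan G → (fun g => (f g : ℂ)) ∈ elemSpan G := by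
    intro f hf
    induction hf using AddSubgroup.closure_induction with
    | mem f hf =>
      obtain ⟨H, q, hq, hH, rfl⟩ := hf
      haveI := Fintype.ofFinite H
      rw [show (fun g => (permFix H g : ℂ)) = Cfsg.indFun H (fun _ : H => (1 : ℂ)) from
        funext fun g => (indFun_one_eq_permFix H g).symm]
      exact elemSpan_ind H (one_mem_elemSpan_of_quasiElem hq hH)
    | zero =>
      simp only [Pi.zero_apply, Int.cast_zero]
      exact zero_mem (elemSpan G)
    | add a b _ _ ha hb =>
      have := add_mem ha hb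
      simpa [Pi.add_def] using this
    | neg a _ ha =>
      have := neg_mem ha
      simpa [Pi.neg_def] using this
  simpa using key 1 one_mem_qSpan

theorem isCharacter_mem_elemSpan {χ : G → ℂ} (hχ : Cfsg.IsCharacter G χ) : χ ∈ elemSpan G := by
  have h := elemSpan_mul hχ one_mem_elemSpan
  rwa [show χ * (fun _ : G => (1 : ℂ)) = χ from funext fun _ => mul_one _] at h

/-- Brauer's characterisation of characters. -/
theorem isGeneralizedCharacter_of_elementary {θ : G → ℂ} (hθ : Cfsg.IsClassFunction G θ)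
    (hE : ∀ (E : Subgroup G) (p : ℕ), p.Prime → Cfsg.IsElementary p E →
      Cfsg.IsGeneralizedCharacter E (fun e : E => θ e)) :
    Cfsg.IsGeneralizedCharacter G θ := by
  have key : ∀ f : G → ℂ, f ∈ elemSpan G → Cfsg.IsGeneralizedCharacter G (θ * f) := by
    intro f hf
    induction hf using AddSubgroup.closure_induction with
    | mem f hf =>
      obtain ⟨E, p, φ, hp, hEl, hφ, rfl⟩ := hf
      rw [mul_indFun hθ]
      obtain ⟨a, b, ha, hb, hab⟩ := hE E p hp hEl
      exact ⟨_, _, indFun_isCharacter E (isCharacter_mul ha hφ),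
        indFun_isCharacter E (isCharacter_mul hb hφ), by rw [hab, sub_mul, indFun_sub]⟩
    | zero => exact ⟨0, 0, isCharacter_zero, isCharacter_zero, by simp⟩
    | add a b _ _ ha hb =>
      obtain ⟨a1, a2, h1, h2, ha⟩ := ha
      obtain ⟨b1, b2, h3, h4, hb⟩ := hb
      exact ⟨a1 + b1, a2 + b2, isCharacter_add h1 h3, isCharacter_add h2 h4, by
        rw [mul_add, ha, hb]; abel⟩
    | neg a _ ha =>
      obtain ⟨a1, a2, h1, h2, ha⟩ := ha
      exact ⟨a2, a1, h2, h1, by rw [mul_neg, ha, neg_sub]⟩
  have := key _ one_mem_elemSpan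
  rwa [show θ * (fun _ : G => (1 : ℂ)) = θ from funext fun _ => mul_one _] at this

/-- `|G|_p` times the indicator of the `p`-regular elements is a generalized character. -/
theorem isGeneralizedCharacter_regular {p : ℕ} (hp : p.Prime) :
    Cfsg.IsGeneralizedCharacter G (fun g : G =>
      if p ∣ orderOf g then 0 else ((p : ℂ) ^ (Nat.card G).factorization p)) := by
  classical
  refine isGeneralizedCharacter_of_elementary (fun g h => ?_) fun E q hq hEl => ?_
  · rw [← MulAut.conj_apply, MulEquiv.orderOf_eq]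
  haveI : Fact q.Prime := ⟨hq⟩
  haveI : Fact p.Prime := ⟨hp⟩
  haveI := Fintype.ofFinite E
  obtain ⟨R, hRn, hRc, hRi⟩ : ∃ R : Subgroup E, R.Normal ∧ ¬ p ∣ Nat.card R ∧
      ∃ j, R.index = p ^ j := by
    obtain ⟨x, hx, hcop, k, hk⟩ := hEl
    haveI hxn : (Subgroup.zpowers x).Normal := ⟨fun z hz g => by
      rw [Subgroup.mem_center_iff.1 ((Subgroup.zpowers_le.2 hx) hz) g, mul_assoc, mul_inv_cancel,
        mul_one]
      exact hz⟩
    by_cases hqp : q = p
    · subst hqp
      refine ⟨Subgroup.zpowers x, hxn, ?_, k, hk⟩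
      rw [Nat.card_zpowers]
      exact (Nat.Prime.coprime_iff_not_dvd hq).1 hcop.symm
    · obtain ⟨a, b, -, -, ⟨i, ha⟩, hb, hax, hbx⟩ := Blocks.exists_pPart hp x
      have hac : Subgroup.zpowers a ≤ Subgroup.center E :=
        Subgroup.zpowers_le.2 ((Subgroup.zpowers_le.2 hx) hax)
      obtain ⟨Q⟩ : Nonempty (Sylow p E) := inferInstance
      have hQle : (Q : Subgroup E) ≤ Subgroup.zpowers x := by
        intro y hy
        obtain ⟨j, hj⟩ := Q.2 ⟨y, hy⟩
        have h1 : orderOf (QuotientGroup.mk' (Subgroup.zpowers x) y) ∣ p ^ j :=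
          (orderOf_map_dvd _ y).trans (orderOf_dvd_of_pow_eq_one (congrArg Subtype.val hj))
        have h2 : orderOf (QuotientGroup.mk' (Subgroup.zpowers x) y) ∣ q ^ k := by
          rw [← hk, Subgroup.index_eq_card]; exact orderOf_dvd_natCard _
        exact (QuotientGroup.eq_one_iff y).1 (orderOf_eq_one_iff.1 (Nat.eq_one_of_dvd_coprimes
          (((Nat.coprime_primes hp hq).2 (Ne.symm hqp)).pow j k) h1 h2))
      have hQc : (Q : Subgroup E) ≤ Subgroup.center E := hQle.trans (Subgroup.zpowers_le.2 hx)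
      haveI : (Q : Subgroup E).Normal := ⟨fun z hz g => by
        rw [Subgroup.mem_center_iff.1 (hQc hz) g, mul_assoc, mul_inv_cancel, mul_one]
        exact hz⟩
      obtain ⟨R, hR⟩ :=
        Subgroup.exists_right_complement'_of_coprime (N := (Q : Subgroup E)) Q.card_coprime_index
      have hRcard : Nat.card R = (Q : Subgroup E).index := hR.symm.index_eq_card.symm
      refine ⟨R, ⟨fun n hn g => ?_⟩, hRcard ▸ Q.not_dvd_index, ?_⟩
      · obtain ⟨⟨⟨c, hc⟩, ⟨r, hr⟩⟩, hcr⟩ := hR.2 g
        have hg : g * n * g⁻¹ = r * n * r⁻¹ := by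
          rw [← hcr]
          have h1 := Subgroup.mem_center_iff.1 (hQc hc) (r * n * r⁻¹)
          calc c * r * n * (c * r)⁻¹ = c * (r * n * r⁻¹) * c⁻¹ := by group
            _ = _ := by rw [← h1, mul_inv_cancel_right]
        rw [hg]
        exact R.mul_mem (R.mul_mem hr hn) (R.inv_mem hr)
      · exact ⟨_, hR.index_eq_card.trans Q.card_eq_multiplicity⟩
  haveI := hRn
  haveI := Fintype.ofFinite R
  obtain ⟨j, hj⟩ := hRi
  have hreg : ∀ e : E, ¬ p ∣ orderOf (e : G) ↔ e ∈ R := by
    intro e
    rw [Subgroup.orderOf_coe]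
    constructor
    · intro he
      have h2 : orderOf (QuotientGroup.mk' R e) ∣ p ^ j := by
        rw [← hj, Subgroup.index_eq_card]; exact orderOf_dvd_natCard _
      exact (QuotientGroup.eq_one_iff e).1 (orderOf_eq_one_iff.1 (Nat.eq_one_of_dvd_coprimes
        ((hp.coprime_iff_not_dvd.2 he).pow_left j) h2 (orderOf_map_dvd (QuotientGroup.mk' R) e)))
    · exact fun he h => hRc (h.trans (Subgroup.orderOf_dvd_natCard R he))
  obtain ⟨n, hn⟩ : p ^ j ∣ p ^ (Nat.card G).factorization p := by
    refine pow_dvd_pow p ((hp.pow_dvd_iff_le_factorization Nat.card_pos.ne').1 ?_)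
    rw [← hj]
    exact (Subgroup.index_dvd_card R).trans (Subgroup.card_subgroup_dvd_card E)
  have hind := indFun_isCharacter R (isCharacter_of_isIrrCharacter
    (isIrrCharacter_one (G := R)))
  refine ⟨n • Cfsg.indFun R (fun _ : R => (1 : ℂ)), 0, isCharacter_nsmul hind n, isCharacter_zero, ?_⟩
  rw [sub_zero]
  funext e
  simp only [Pi.smul_apply, nsmul_eq_mul]
  by_cases he : e ∈ R
  · rw [if_neg ((hreg e).2 he)]
    have h := congrFun (indFun_res_normal R (fun _ : R => (1 : ℂ))) ⟨e, he⟩
    simp only [Pi.smul_apply, Finset.sum_apply, conjFn, Finset.sum_const, Finset.card_univ,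
      nsmul_eq_mul, mul_one, smul_eq_mul] at h
    rw [h, ← Nat.card_eq_fintype_card, ← Subgroup.index_mul_card R, hj]
    have : (Nat.card R : ℂ) ≠ 0 := by exact_mod_cast Nat.card_pos.ne'
    rw [show ((p : ℂ) ^ (Nat.card G).factorization p) = ((p ^ j * n : ℕ) : ℂ) by
      rw [← hn]; push_cast; rfl]
    push_cast
    field_simp
  · rw [if_pos (not_not.1 (mt (hreg e).1 he)), indFun_eq_zero_of_not_mem R _ he, mul_zero]

end Cfsg.Agent.Char
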