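import Cfsg.Agent.Char.Irr
import Cfsg.Agent.Char.Induced
import Cfsg.Agent.Blocks.SectionApp
import Mathlib.GroupTheory.Complement
import Mathlib.GroupTheory.Sylow

/-!
# Brauer's induction theorem, the elementary step

The span of the characters induced from elementary subgroups is an ideal; it contains the
principal character of every quasi-elementary group.
-/

namespace Cfsg.Agent.Char

universe u

variable {G : Type u} [Group G]

theorem isElementary_of_equiv {H : Type*} [Group H] {K : Type*} [Group K] (e : H ≃* K) {p : ℕ}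
    (h : Cfsg.IsElementary p H) : Cfsg.IsElementary p K := by
  obtain ⟨x, hx, hc, k, hk⟩ := h
  refine ⟨e x, Subgroup.mem_center_iff.2 fun y => ?_, by rwa [MulEquiv.orderOf_eq], k, ?_⟩
  · obtain ⟨y, rfl⟩ := e.surjective y
    rw [← map_mul, Subgroup.mem_center_iff.1 hx y, map_mul]
  · rw [← hk, ← Subgroup.index_map_equiv (Subgroup.zpowers x) e, MonoidHom.map_zpowers]
    rfl

section Fin

variable [Fintype G]

theorem indFun_congr {A B : Subgroup G} (h : A = B) {f : A → ℂ} {f' : B → ℂ}
    (hf : ∀ x hA hB, f ⟨x, hA⟩ = f' ⟨x, hB⟩) : Cfsg.indFun A f = Cfsg.indFun B f' := by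
  subst h
  rw [show f = f' from funext fun x => hf x.1 x.2 x.2]

theorem indFun_sub (H : Subgroup G) (a b : H → ℂ) :
    Cfsg.indFun H (a - b) = Cfsg.indFun H a - Cfsg.indFun H b := by
  have h : a - b = a + (-1 : ℂ) • b := by simp [sub_eq_add_neg]
  rw [h, indFun_add, indFun_smul]
  simp [sub_eq_add_neg]

theorem mul_indFun {θ : G → ℂ} (hθ : Cfsg.IsClassFunction G θ) (E : Subgroup G) (φ : E → ℂ) :
    θ * Cfsg.indFun E φ = Cfsg.indFun E ((fun e : E => θ e) * φ) := by
  funext g
  simp only [Pi.mul_apply, Cfsg.indFun, Finset.mul_sum]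
  refine Finset.sum_congr rfl fun x _ => ?_
  have hx : θ (x⁻¹ * g * x) = θ g := by simpa using hθ g x⁻¹
  by_cases h : x⁻¹ * g * x ∈ E
  · rw [extendByZero_of_mem E _ h, extendByZero_of_mem E _ h, Pi.mul_apply, hx]; ring
  · rw [extendByZero_of_not_mem E _ h, extendByZero_of_not_mem E _ h]; ring

/-- The span of the characters induced from elementary subgroups. -/
def elemSpan (G : Type u) [Group G] [Fintype G] : AddSubgroup (G → ℂ) :=
  AddSubgroup.closure {f | ∃ (E : Subgroup G) (p : ℕ) (φ : E → ℂ),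
    p.Prime ∧ Cfsg.IsElementary p E ∧ Cfsg.IsCharacter E φ ∧ f = Cfsg.indFun E φ}

theorem elemSpan_basic {E : Subgroup G} {p : ℕ} {φ : E → ℂ} (hp : p.Prime)
    (hE : Cfsg.IsElementary p E) (hφ : Cfsg.IsCharacter E φ) : Cfsg.indFun E φ ∈ elemSpan G :=
  AddSubgroup.subset_closure ⟨E, p, φ, hp, hE, hφ, rfl⟩

theorem elemSpan_mul {θ : G → ℂ} (hθ : Cfsg.IsCharacter G θ) {f : G → ℂ} (hf : f ∈ elemSpan G) :
    θ * f ∈ elemSpan G := by
  induction hf using AddSubgroup.closure_induction with
  | mem f hf =>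
    obtain ⟨E, p, φ, hp, hE, hφ, rfl⟩ := hf
    rw [mul_indFun (isClassFunction_of_isCharacter hθ)]
    exact elemSpan_basic hp hE (isCharacter_mul (isCharacter_comp hθ E.subtype) hφ)
  | zero => rw [mul_zero]; exact zero_mem _
  | add a b _ _ ha hb => rw [mul_add]; exact add_mem ha hb
  | neg a _ ha => rw [mul_neg]; exact neg_mem ha

theorem elemSpan_ind (H : Subgroup G) [Fintype H] {f : H → ℂ} (hf : f ∈ elemSpan H) :
    Cfsg.indFun H f ∈ elemSpan G := by
  induction hf using AddSubgroup.closure_induction with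
  | mem f hf =>
    obtain ⟨E', p, φ, hp, hE, hφ, rfl⟩ := hf
    set e := E'.equivMapOfInjective H.subtype H.subtype_injective
    let θ : E'.map H.subtype → ℂ := fun x => φ (e.symm x)
    have h := indFun_trans (E'.map H.subtype) H (Subgroup.map_subtype_le E') θ
    have h2 : Cfsg.indFun ((E'.map H.subtype).subgroupOf H)
        (fun x => θ ⟨(x : H), Subgroup.mem_subgroupOf.mp x.2⟩) = Cfsg.indFun E' φ := by
      refine indFun_congr (Subgroup.comap_map_eq_self_of_injective H.subtype_injective E')
        fun x hA hB => ?_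
      show φ (e.symm _) = _
      congr 1
      exact e.symm_apply_eq.2 (Subtype.ext rfl)
    rw [h2] at h
    rw [h]
    exact elemSpan_basic hp (isElementary_of_equiv e hE) (isCharacter_comp hφ e.symm.toMonoidHom)
  | zero =>
    have := indFun_sub H 0 0
    simp only [sub_self] at this
    rw [this]; exact zero_mem _
  | add a b _ _ ha hb => rw [indFun_add]; exact add_mem ha hb
  | neg a _ ha =>
    have : -a = (-1 : ℂ) • a := by simp
    rw [this, indFun_smul, neg_one_smul]; exact neg_mem ha

end Fin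

/-- A character of a finite commutative group which is irreducible is a homomorphism. -/
theorem exists_hom_of_isMulCommutative [Finite G] (hG : ∀ a b : G, a * b = b * a)
    (lam : Cfsg.IrrCharacter G) : ∃ L : G →* ℂ, (lam : G → ℂ) = L := by
  obtain ⟨n, ρ, hirr, hρ⟩ := lam.2
  haveI := hirr
  have hs : ∀ g : G, ∃ c : ℂ, ρ g = c • LinearMap.id := fun g =>
    exists_smul_id_of_commute ρ (ρ g) fun h => by rw [← map_mul, ← map_mul, hG]
  choose c hc using hs
  have hval : ∀ g : G, (lam : G → ℂ) g = c g * n := by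
    intro g
    rw [← hρ, Representation.character, hc, map_smul, LinearMap.trace_id]
    simp
  have hn : (n : ℂ) ≠ 0 := by
    intro h
    exact irr_one_ne_zero lam (by rw [hval, h, mul_zero])
  haveI := Fintype.ofFinite G
  have hcn : ∀ g : G, ‖c g‖ = 1 := by
    intro g
    obtain ⟨b, ω, hb, hω⟩ := exists_eigenbasis ρ g (isOfFinOrder_of_finite g)
    have h0 : 0 < Module.finrank ℂ (Fin n → ℂ) := finrank_pos_of_isIrreducible ρ
    have hcω : ω ⟨0, h0⟩ = c g := by
      have h := hb ⟨0, h0⟩
      rw [hc g] at h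
      exact (smul_left_injective ℂ (b.ne_zero _) h).symm
    rw [← hcω]
    exact Complex.norm_eq_one_of_pow_eq_one (hω _) (orderOf_pos g).ne'
  have hn1 : n = 1 := by
    have h := classInner_irr_self lam
    unfold Cfsg.classInner at h
    have hsum : ∀ g : G, (lam : G → ℂ) g * starRingEnd ℂ ((lam : G → ℂ) g) = (n : ℂ) ^ 2 := by
      intro g
      rw [hval, map_mul, Complex.conj_natCast]
      have : c g * starRingEnd ℂ (c g) = 1 := by
        rw [Complex.mul_conj, Complex.normSq_eq_norm_sq, hcn g]; simp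
      linear_combination (n : ℂ) ^ 2 * this
    rw [Finset.sum_congr rfl fun g _ => hsum g, Finset.sum_const, Finset.card_univ, nsmul_eq_mul,
      ← Nat.card_eq_fintype_card, ← mul_assoc,
      inv_mul_cancel₀ (by exact_mod_cast Nat.card_pos.ne'), one_mul] at h
    have h2 : n ^ 2 = 1 := by exact_mod_cast h
    exact (pow_eq_one_iff.1 h2).resolve_right two_ne_zero
  refine ⟨{ toFun := fun g => (lam : G → ℂ) g, map_one' := ?_, map_mul' := ?_ }, rfl⟩
  · rw [← hρ, Representation.char_one]; simp [hn1]
  · intro a b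
    simp only [hval, hn1, Nat.cast_one, mul_one]
    have h := map_mul ρ a b
    rw [hc a, hc b, hc (a * b)] at h
    subst hn1
    have h' := congrFun (LinearMap.congr_fun h (fun _ => (1 : ℂ))) 0
    simp at h'
    linear_combination h'

/-- Quasi-elementary groups. -/
def IsQuasiElem (p : ℕ) (H : Type*) [Group H] : Prop :=
  ∃ C : Subgroup H, C.Normal ∧ IsCyclic C ∧ (Nat.card C).Coprime p ∧ ∃ k, C.index = p ^ k

theorem isQuasiElem_subgroup {H : Type*} [Group H] [Finite H] {p : ℕ} (hp : p.Prime)
    (h : IsQuasiElem p H) (T : Subgroup H) : IsQuasiElem p T := by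
  obtain ⟨C, hC, hcyc, hcop, k, hk⟩ := h
  haveI := hC; haveI := hcyc
  have hc : Nat.card (C.subgroupOf T) ∣ Nat.card C := by
    have h1 : Nat.card (C.subgroupOf T) = Nat.card (C ⊓ T : Subgroup H) := by
      rw [← Subgroup.inf_subgroupOf_right]
      exact Nat.card_congr (Subgroup.subgroupOfEquivOfLe inf_le_right).toEquiv
    rw [h1]
    exact Subgroup.card_dvd_of_le inf_le_left
  refine ⟨C.subgroupOf T, inferInstance, ?_, hcop.coprime_dvd_left hc, ?_⟩
  · let f : C.subgroupOf T →* C :=
      { toFun := fun x => ⟨((x : T) : H), x.2⟩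
        map_one' := rfl
        map_mul' := fun _ _ => rfl }
    refine isCyclic_of_injective f fun a b hab => ?_
    exact Subtype.ext (Subtype.ext (congrArg Subtype.val hab :))
  · have h2 : (C.subgroupOf T).index ∣ p ^ k := hk ▸ Subgroup.relIndex_dvd_index_of_normal C T
    obtain ⟨j, -, hj⟩ := (Nat.dvd_prime_pow hp).1 h2
    exact ⟨j, hj⟩

theorem classInner_comp_equiv {H K : Type*} [Group H] [Group K] [Fintype H] [Fintype K]
    (e : H ≃* K) (a b : K → ℂ) :
    Cfsg.classInner (fun h => a (e h)) (fun h => b (e h)) = Cfsg.classInner a b := by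
  unfold Cfsg.classInner
  rw [Nat.card_congr e.toEquiv]
  congr 1
  exact Fintype.sum_equiv e.toEquiv _ _ fun _ => rfl

/-- Clifford: a character over a non-invariant linear character is induced from the stabiliser. -/
theorem exists_induced_of_not_invariant [Fintype G] (C : Subgroup G) [C.Normal] [Fintype C]
    (χ : Cfsg.IrrCharacter G) (lam : Cfsg.IrrCharacter C) (hlin : (lam : C → ℂ) 1 = 1)
    (hcon : Cfsg.classInner (fun c : C => (χ : G → ℂ) c) (lam : C → ℂ) ≠ 0)
    (hnot : ¬ ∀ g : G, conjFn C (lam : C → ℂ) g = lam) :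
    ∃ T : Subgroup G, T ≠ ⊤ ∧ ∃ ψ : T → ℂ,
      Cfsg.IsCharacter T ψ ∧ (χ : G → ℂ) = Cfsg.indFun T ψ := by
  classical
  let T : Subgroup G :=
    { carrier := {g | conjFn C (lam : C → ℂ) g = lam}
      one_mem' := conjFn_one C _
      mul_mem' := fun {a b} (ha : _ = _) (hb : _ = _) => by
        show conjFn C _ (a * b) = _
        rw [conjFn_mul, ha, hb]
      inv_mem' := fun {a} (ha : _ = _) => by
        show conjFn C _ a⁻¹ = _
        conv_lhs => rw [← ha, ← conjFn_mul, mul_inv_cancel, conjFn_one] }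
  have hCT : C ≤ T := fun c hc => funext fun n => by
    have := irr_isClassFunction lam n (⟨c, hc⟩ : C)
    exact (congrArg (lam : C → ℂ) (Subtype.ext rfl)).trans this
  haveI := Fintype.ofFinite T
  haveI := Fintype.ofFinite (C.subgroupOf T)
  let e : C.subgroupOf T ≃* C := Subgroup.subgroupOfEquivOfLe hCT
  let lam' : Cfsg.IrrCharacter (C.subgroupOf T) :=
    ⟨fun x => (lam : C → ℂ) (e x), isIrrCharacter_comp_of_surjective lam.2 e.toMonoidHom e.surjective⟩
  -- expand the restriction to T
  have hresT := isCharacter_comp (isCharacter_of_isIrrCharacter χ.2) T.subtype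
  have hexp := classFunction_expand (isClassFunction_of_isCharacter hresT)
  choose m hm using fun ψ : Cfsg.IrrCharacter T => exists_nat_classInner hresT ψ
  choose b hb using fun ψ : Cfsg.IrrCharacter T => exists_nat_classInner
    (isCharacter_comp (isCharacter_of_isIrrCharacter ψ.2) (C.subgroupOf T).subtype) lam'
  obtain ⟨a, ha⟩ := exists_nat_classInner
    (isCharacter_comp (isCharacter_of_isIrrCharacter χ.2) C.subtype) lam
  have ha' : Cfsg.classInner (fun c : C => (χ : G → ℂ) c) (lam : C → ℂ) = a := ha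
  have hsum : a = ∑ ψ, m ψ * b ψ := by
    have h1 : (fun x : C.subgroupOf T => (χ : G → ℂ) ((x : T) : G)) =
        ∑ ψ : Cfsg.IrrCharacter T, (m ψ : ℂ) • fun x : C.subgroupOf T => (ψ : T → ℂ) (x : T) := by
      funext x
      have := congrFun hexp (x : T)
      simp only [Function.comp_apply, Subgroup.coe_subtype, Finset.sum_apply, Pi.smul_apply,
        smul_eq_mul] at this ⊢
      rw [this]
      exact Finset.sum_congr rfl fun ψ _ => by rw [← hm ψ]; rfl
    have h2 : Cfsg.classInner (fun x : C.subgroupOf T => (χ : G → ℂ) ((x : T) : G))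
        (lam' : _ → ℂ) = a := by
      rw [← ha']
      exact classInner_comp_equiv e (fun c : C => (χ : G → ℂ) c) (lam : C → ℂ)
    rw [h1, classInner_sum_left] at h2
    simp only [classInner_smul_left] at h2
    have h3 : ∀ ψ : Cfsg.IrrCharacter T, Cfsg.classInner
      (fun x : C.subgroupOf T => (ψ : T → ℂ) (x : T)) (lam' : _ → ℂ) = b ψ := hb
    simp only [h3] at h2
    exact_mod_cast h2.symm
  have ha0 : a ≠ 0 := fun h => hcon (by rw [ha', h]; simp)
  obtain ⟨ψ, -, hψ⟩ : ∃ ψ ∈ (Finset.univ : Finset (Cfsg.IrrCharacter T)), m ψ * b ψ ≠ 0 :=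
    Finset.exists_ne_zero_of_sum_ne_zero (hsum ▸ ha0)
  have hle : m ψ * b ψ ≤ a := hsum ▸
    Finset.single_le_sum (f := fun ψ => m ψ * b ψ) (fun _ _ => Nat.zero_le _) (Finset.mem_univ ψ)
  have hm0 : 0 < m ψ := Nat.pos_of_ne_zero (left_ne_zero_of_mul hψ)
  -- degree of ψ
  have hψ1 : (ψ : T → ℂ) 1 = b ψ := by
    have h3 : Cfsg.classInner (fun x : C.subgroupOf T => (ψ : T → ℂ) (x : T)) (lam' : _ → ℂ)
      = b ψ := hb ψ
    have h := congrFun (res_eq_smul_sum_conj (C.subgroupOf T) ψ lam'
      (by rw [h3]; exact_mod_cast right_ne_zero_of_mul hψ)) 1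
    have hset : {f : C.subgroupOf T → ℂ | ∃ g : T,
        f = conjFn (C.subgroupOf T) (lam' : _ → ℂ) g} = {(lam' : _ → ℂ)} := by
      ext f
      simp only [Set.mem_setOf_eq, Set.mem_singleton_iff]
      constructor
      · rintro ⟨g, rfl⟩
        funext x
        have := congrFun (g.2 : conjFn C (lam : C → ℂ) (g : G) = lam) (e x)
        exact (congrArg (lam : C → ℂ) (Subtype.ext rfl)).trans this
      · rintro rfl
        exact ⟨1, (conjFn_one _ _).symm⟩
    rw [hset, finsum_mem_singleton, h3] at h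
    simp only [Pi.smul_apply, smul_eq_mul, OneMemClass.coe_one] at h
    have hl1 : (lam' : C.subgroupOf T → ℂ) 1 = 1 := by
      show (lam : C → ℂ) (e 1) = 1
      rw [map_one, hlin]
    rw [h, hl1, mul_one]
  -- degree of χ
  have hχ1 : (χ : G → ℂ) 1 = (a : ℂ) * T.index := by
    have h := congrFun (res_eq_smul_sum_conj C χ lam hcon) 1
    simp only [Pi.smul_apply, smul_eq_mul, OneMemClass.coe_one] at h
    rw [h, ha']
    congr 1
    set O := {f : C → ℂ | ∃ g : G, f = conjFn C (lam : C → ℂ) g} with hO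
    have hfin : O.Finite := (Set.finite_range fun g : G => conjFn C (lam : C → ℂ) g).subset
      (by rintro f ⟨g, rfl⟩; exact ⟨g, rfl⟩)
    rw [finsum_mem_eq_finite_toFinset_sum _ hfin, Finset.sum_apply]
    have hone : ∀ f ∈ hfin.toFinset, f 1 = 1 := by
      intro f hf
      obtain ⟨g, rfl⟩ := (Set.Finite.mem_toFinset hfin).1 hf
      rw [← hlin]
      exact congrArg (lam : C → ℂ) (Subtype.ext (by simp))
    rw [Finset.sum_congr rfl hone, Finset.sum_const, nsmul_one, Subgroup.index_eq_card]
    norm_cast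
    rw [← Set.ncard_eq_toFinset_card O hfin, ← Nat.card_coe_set_eq]
    symm
    let f : G ⧸ T → O := Quotient.lift (fun g => ⟨conjFn C (lam : C → ℂ) g⁻¹, g⁻¹, rfl⟩)
      (fun x y hxy => Subtype.ext (by
        have hxy' : x⁻¹ * y ∈ T := QuotientGroup.leftRel_apply.1 hxy
        show conjFn C (lam : C → ℂ) x⁻¹ = conjFn C (lam : C → ℂ) y⁻¹
        calc conjFn C (lam : C → ℂ) x⁻¹ = conjFn C (lam : C → ℂ) (x⁻¹ * y * y⁻¹) := by
              rw [mul_inv_cancel_right]
          _ = conjFn C (conjFn C (lam : C → ℂ) (x⁻¹ * y)) y⁻¹ := conjFn_mul C _ _ _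
          _ = conjFn C (lam : C → ℂ) y⁻¹ := by
              rw [show conjFn C (lam : C → ℂ) (x⁻¹ * y) = (lam : C → ℂ) from hxy']))
    refine Nat.card_congr (Equiv.ofBijective f ⟨?_, ?_⟩)
    · intro q q'
      refine Quotient.inductionOn₂ q q' fun x y hxy => Quotient.sound ?_
      refine QuotientGroup.leftRel_apply.2 ?_
      have hxy' : conjFn C (lam : C → ℂ) x⁻¹ = conjFn C (lam : C → ℂ) y⁻¹ :=
        congrArg Subtype.val hxy
      show conjFn C _ (x⁻¹ * y) = _
      rw [conjFn_mul, hxy', ← conjFn_mul, inv_mul_cancel, conjFn_one]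
    · rintro ⟨-, g, rfl⟩
      exact ⟨QuotientGroup.mk g⁻¹, Subtype.ext (by
        show conjFn C (lam : C → ℂ) g⁻¹⁻¹ = _
        rw [inv_inv])⟩
  -- comparison
  have hT : T ≠ ⊤ := fun h => hnot fun g => by
    have : g ∈ T := h ▸ Subgroup.mem_top g
    exact this
  refine ⟨T, hT, (ψ : T → ℂ), isCharacter_of_isIrrCharacter ψ.2, ?_⟩
  have hI := indFun_isCharacter T (isCharacter_of_isIrrCharacter ψ.2)
  have hinner : Cfsg.classInner (Cfsg.indFun T (ψ : T → ℂ)) (χ : G → ℂ) = m ψ := by
    rw [classInner_indFun T _ (irr_isClassFunction χ), ← classInner_conj_symm,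
      show Cfsg.classInner (fun x : T => (χ : G → ℂ) x) (ψ : T → ℂ) = m ψ from hm ψ,
      Complex.conj_natCast]
  have hR : Cfsg.IsCharacter G (Cfsg.indFun T (ψ : T → ℂ) - (χ : G → ℂ)) := by
    refine isCharacter_of_inner_nat (fun g x => ?_) fun η => ?_
    · simp only [Pi.sub_apply]
      rw [indFun_isClassFunction T _ g x, irr_isClassFunction χ g x]
    · rw [classInner_sub_left]
      by_cases hη : η = χ
      · subst hη
        rw [hinner, classInner_irr_self]
        exact ⟨m ψ - 1, by rw [Nat.cast_sub hm0]; simp⟩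
      · obtain ⟨k, hk⟩ := exists_nat_classInner hI η
        exact ⟨k, by rw [hk, classInner_irr_of_ne (Ne.symm hη), sub_zero]⟩
  obtain ⟨r, hr⟩ := isCharacter_apply_one hR
  have hr0 : r = 0 := by
    simp only [Pi.sub_apply, indFun_apply_one, hψ1, hχ1] at hr
    have hr' : r + a * T.index = T.index * b ψ := by
      have : (r : ℂ) + (a : ℂ) * T.index = (T.index : ℂ) * b ψ := by rw [← hr]; ring
      exact_mod_cast this
    have : b ψ ≤ a := le_trans (Nat.le_mul_of_pos_left _ hm0) hle
    have : T.index * b ψ ≤ a * T.index := by rw [mul_comm a]; exact Nat.mul_le_mul_left _ this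
    omega
  funext g
  have h := norm_isCharacter_le hR g
  simp only [hr, hr0, Pi.sub_apply] at h
  simp only [Nat.cast_zero] at h
  have h0 : Cfsg.indFun T (ψ : T → ℂ) g - (χ : G → ℂ) g = 0 := by
    simpa using h
  exact (sub_eq_zero.1 h0).symm

theorem one_mem_elemSpan_aux (n : ℕ) : ∀ (H : Type u) [Group H] [Fintype H], Nat.card H = n →
    ∀ p : ℕ, p.Prime → IsQuasiElem p H → (fun _ : H => (1 : ℂ)) ∈ elemSpan H := by
  induction n using Nat.strong_induction_on with
  | _ n ih =>
  intro H _ _ hn p hp hqe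
  classical
  haveI : Fact p.Prime := ⟨hp⟩
  obtain ⟨C, hCn, hCcyc, hCcop, k, hk⟩ := hqe
  haveI := hCn; haveI := hCcyc
  letI : CommGroup C := IsCyclic.commGroup
  obtain ⟨P⟩ : Nonempty (Sylow p H) := inferInstance
  have hCP : Nat.Coprime (Nat.card C) (Nat.card P) := by
    rw [P.card_eq_multiplicity]; exact hCcop.pow_right _
  have htop : C ⊔ (P : Subgroup H) = ⊤ := by
    rw [← Subgroup.index_eq_one]
    have h1 : (C ⊔ (P : Subgroup H)).index ∣ p ^ k := hk ▸ Subgroup.index_dvd_of_le le_sup_left
    have h2 : (C ⊔ (P : Subgroup H)).index ∣ (P : Subgroup H).index :=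
      Subgroup.index_dvd_of_le le_sup_right
    exact Nat.eq_one_of_dvd_coprimes
      ((hp.coprime_iff_not_dvd.2 P.not_dvd_index).pow_left k) h1 h2
  set Z : Subgroup H := C ⊓ Subgroup.centralizer ((P : Subgroup H) : Set H) with hZdef
  have hZc : Z ≤ Subgroup.center H := by
    intro z hz
    rw [← Subgroup.centralizer_univ, ← Subgroup.coe_top, ← htop, Subgroup.sup_eq_closure,
      Subgroup.centralizer_closure, Subgroup.mem_centralizer_iff]
    rintro y (hy | hy)
    · exact congrArg Subtype.val (mul_comm (⟨y, hy⟩ : C) ⟨z, hz.1⟩)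
    · exact Subgroup.mem_centralizer_iff.1 hz.2 y hy
  haveI hZn : Z.Normal := ⟨fun z hz g => by
    rw [Subgroup.mem_center_iff.1 (hZc hz) g, mul_assoc, mul_inv_cancel, mul_one]; exact hz⟩
  set E : Subgroup H := (P : Subgroup H) ⊔ Z with hEdef
  haveI := Fintype.ofFinite E
  haveI := Fintype.ofFinite C
  have hEe : Cfsg.IsElementary p E := by
    haveI : IsCyclic Z := by
      refine isCyclic_of_injective (Subgroup.inclusion (inf_le_left : Z ≤ C))
        (Subgroup.inclusion_injective _)
    obtain ⟨x, hx⟩ := IsCyclic.exists_zpow_surjective (G := Z)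
    have hxE : (x : H) ∈ E := Subgroup.mem_sup_right x.2
    refine ⟨⟨x, hxE⟩, Subgroup.mem_center_iff.2 fun y => Subtype.ext
      (Subgroup.mem_center_iff.1 (hZc x.2) y), ?_, ?_⟩
    · rw [Subgroup.orderOf_mk]
      exact hCcop.coprime_dvd_left ((Subgroup.orderOf_dvd_natCard C x.2.1))
    · have h1 : (Subgroup.zpowers (⟨x, hxE⟩ : E)) = Z.subgroupOf E := by
        ext y
        rw [Subgroup.mem_subgroupOf, Subgroup.mem_zpowers_iff]
        constructor
        · rintro ⟨i, rfl⟩
          show ((x : H)) ^ i ∈ Z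
          exact Subgroup.zpow_mem _ x.2 i
        · intro hy
          obtain ⟨i, hi⟩ := hx ⟨y, hy⟩
          exact ⟨i, Subtype.ext (by simpa using congrArg Subtype.val hi)⟩
      rw [h1]
      change ∃ k, Z.relIndex E = p ^ k
      rw [hEdef, Subgroup.relIndex_sup_right]
      obtain ⟨j, -, hj⟩ := (Nat.dvd_prime_pow hp).1 (P.card_eq_multiplicity ▸
        (Subgroup.index_dvd_card (Z.subgroupOf (P : Subgroup H))))
      exact ⟨j, hj⟩
  have hind : ∀ (T : Subgroup H) [Fintype T], T ≠ ⊤ → (fun _ : T => (1 : ℂ)) ∈ elemSpan T := by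
    intro T _ hT
    refine ih (Nat.card T) ?_ T rfl p hp (isQuasiElem_subgroup hp ⟨C, hCn, hCcyc, hCcop, k, hk⟩ T)
    rw [← hn]
    exact lt_of_le_of_ne (Subgroup.card_le_card_group T) fun h => hT
      (Subgroup.eq_top_of_card_eq T h)
  set F : H → ℂ := Cfsg.indFun E (fun _ : E => (1 : ℂ)) with hF
  have hFc : Cfsg.IsCharacter H F := indFun_isCharacter E
    (isCharacter_of_isIrrCharacter isIrrCharacter_one)
  have hFm : F ∈ elemSpan H := elemSpan_basic hp hEe (isCharacter_of_isIrrCharacter isIrrCharacter_one)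
  have hone : Cfsg.classInner F (oneIrr H : H → ℂ) = 1 := by
    rw [hF, classInner_indFun E _ (irr_isClassFunction _)]
    exact classInner_irr_self (oneIrr E)
  have hrest : ∀ χ : Cfsg.IrrCharacter H, χ ≠ oneIrr H →
      Cfsg.classInner F (χ : H → ℂ) ≠ 0 → (χ : H → ℂ) ∈ elemSpan H := by
    intro χ hχ hne
    obtain ⟨lam, hlam⟩ : ∃ lam : Cfsg.IrrCharacter C,
        Cfsg.classInner (fun c : C => (χ : H → ℂ) c) (lam : C → ℂ) ≠ 0 := by
      by_contra hall
      push Not at hall
      have hz := eq_zero_of_inner_irr_eq_zero (isClassFunction_of_isCharacter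
        (isCharacter_comp (isCharacter_of_isIrrCharacter χ.2) C.subtype)) hall
      exact irr_one_ne_zero χ (congrFun hz 1)
    obtain ⟨L, hL⟩ := exists_hom_of_isMulCommutative mul_comm lam
    by_cases hinv : ∀ g : H, conjFn C (lam : C → ℂ) g = lam
    · exfalso
      -- the restriction to `C` is a multiple of `L`
      have hres : ∀ c : C, (χ : H → ℂ) c = (χ : H → ℂ) 1 * L c := by
        have hset : {f : C → ℂ | ∃ g : H, f = conjFn C (lam : C → ℂ) g} = {(lam : C → ℂ)} := by
          ext f
          simp only [Set.mem_setOf_eq, Set.mem_singleton_iff]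
          exact ⟨fun ⟨g, h⟩ => h.trans (hinv g), fun h => ⟨1, h.trans (conjFn_one C _).symm⟩⟩
        have h := res_eq_smul_sum_conj C χ lam hlam
        rw [hset, finsum_mem_singleton, hL] at h
        have h1 := congrFun h 1
        simp only [Pi.smul_apply, smul_eq_mul, OneMemClass.coe_one, map_one, mul_one] at h1
        intro c
        have h2 := congrFun h c
        simp only [Pi.smul_apply, smul_eq_mul] at h2
        rw [h2, h1]
      have hS : ∑ e : E, (χ : H → ℂ) e ≠ 0 := by
        intro hS
        apply hne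
        rw [hF, classInner_indFun E _ (irr_isClassFunction χ)]
        unfold Cfsg.classInner
        simp only [one_mul, ← map_sum, hS, map_zero, mul_zero]
      have hLZ : ∀ z : C, (z : H) ∈ Z → L z = 1 := by
        intro z hz
        obtain ⟨d, ρ, hirr, hρ⟩ := χ.2
        haveI := hirr
        obtain ⟨μ, hμ⟩ := exists_smul_id_of_commute ρ (ρ z) fun g => by
          rw [← map_mul, ← map_mul, Subgroup.mem_center_iff.1 (hZc hz) g]
        have hmul : ∀ g : H, (χ : H → ℂ) ((z : H) * g) = μ * (χ : H → ℂ) g := by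
          intro g
          rw [← hρ, Representation.character, Representation.character, map_mul, hμ,
            smul_mul_assoc, map_smul, smul_eq_mul]
          rfl
        have hμL : μ = L z := by
          have h := hmul 1
          rw [mul_one, hres z] at h
          exact mul_right_cancel₀ (irr_one_ne_zero χ) (by rw [← h]; ring)
        have hzE : (z : H) ∈ E := Subgroup.mem_sup_right hz
        have h2 : ∑ e : E, (χ : H → ℂ) e = μ * ∑ e : E, (χ : H → ℂ) e := by
          rw [Finset.mul_sum]
          symm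
          refine Fintype.sum_equiv (Equiv.mulLeft (⟨z, hzE⟩ : E)) _ _ fun e => ?_
          rw [← hmul]
          rfl
        rw [← hμL]
        exact mul_right_cancel₀ hS (by rw [one_mul]; exact h2.symm)
      have hLC : ∀ c : C, L c = 1 := by
        intro c
        haveI := Fintype.ofFinite (P : Subgroup H)
        let w : C := ∏ u : (P : Subgroup H), conjEquiv C (u : H) c
        have hwZ : (w : H) ∈ Z := by
          refine ⟨w.2, Subgroup.mem_centralizer_iff.2 fun v hv => ?_⟩
          have h : conjEquiv C v w = w := by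
            rw [map_prod]
            refine Fintype.prod_equiv (Equiv.mulLeft ⟨v, hv⟩) _ _ fun u => ?_
            exact Subtype.ext (by simp [conjEquiv, mul_assoc])
          have h' : v * (w : H) * v⁻¹ = w := congrArg Subtype.val h
          exact mul_inv_eq_iff_eq_mul.1 h'
        have hu : ∀ u : (P : Subgroup H), L (conjEquiv C (u : H) c) = L c := by
          intro u
          have := congrFun (hinv (u : H)) c
          rw [hL] at this
          exact this
        have hw : L w = L c ^ Nat.card (P : Subgroup H) := by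
          simp only [w, map_prod, hu, Finset.prod_const, Finset.card_univ,
            Nat.card_eq_fintype_card]
        have h2 : L c ^ Nat.card C = 1 := by rw [← map_pow, pow_card_eq_one', map_one]
        have h3 := pow_gcd_eq_one.2 ⟨h2, hw.symm.trans (hLZ w hwZ)⟩
        rwa [hCP.gcd_eq_one, pow_one] at h3
      have hker : ∀ c : H, c ∈ C → ∀ g, (χ : H → ℂ) (c * g) = (χ : H → ℂ) g := by
        intro c hc g
        refine Blocks.char_mul_of_apply_eq_one (isCharacter_of_isIrrCharacter χ.2) ?_ g
        rw [hres ⟨c, hc⟩, hLC, mul_one]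
      have hCE : C ⊔ E = ⊤ := by
        rw [eq_top_iff, ← htop]
        exact sup_le le_sup_left (le_sup_left.trans le_sup_right)
      have hH : ∀ h : H, ∑ e : E, (χ : H → ℂ) (h * e) = ∑ e : E, (χ : H → ℂ) e := by
        intro h
        obtain ⟨c, hc, e₀, he₀, rfl⟩ := Subgroup.mem_sup_of_normal_left.1
          (show h ∈ C ⊔ E from hCE ▸ Subgroup.mem_top h)
        refine Fintype.sum_equiv (Equiv.mulLeft (⟨e₀, he₀⟩ : E)) _ _ fun e => ?_
        rw [mul_assoc, hker c hc]
        rfl
      have hz : ∑ g : H, (χ : H → ℂ) g = 0 := by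
        have h := classInner_irr_of_ne hχ
        unfold Cfsg.classInner at h
        simpa [Nat.card_pos.ne'] using h
      have h3 : ∑ h : H, ∑ e : E, (χ : H → ℂ) (h * e) = 0 := by
        rw [Finset.sum_comm]
        refine Finset.sum_eq_zero fun e _ => ?_
        rw [← hz]
        exact Fintype.sum_equiv (Equiv.mulRight (e : H)) _ _ fun h => rfl
      simp only [hH, Finset.sum_const, Finset.card_univ, nsmul_eq_mul] at h3
      exact hS ((mul_eq_zero.1 h3).resolve_left (by exact_mod_cast Fintype.card_ne_zero))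
    · have hlin : (lam : C → ℂ) 1 = 1 := by rw [hL]; exact map_one L
      obtain ⟨T, hT, ψ, hψ, hχψ⟩ := exists_induced_of_not_invariant C χ lam hlin hlam hinv
      haveI := Fintype.ofFinite T
      rw [hχψ]
      refine elemSpan_ind T ?_
      have h := elemSpan_mul hψ (hind T hT)
      rwa [show ψ * (fun _ : T => (1 : ℂ)) = ψ from funext fun _ => mul_one _] at h
  have hexp := classFunction_expand (isClassFunction_of_isCharacter hFc)
  rw [← Finset.add_sum_erase _ _ (Finset.mem_univ (oneIrr H)), hone, one_smul] at hexp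
  have h1 : (fun _ : H => (1 : ℂ)) = F - ∑ χ ∈ Finset.univ.erase (oneIrr H),
      Cfsg.classInner F (χ : H → ℂ) • (χ : H → ℂ) := eq_sub_of_add_eq hexp.symm
  rw [h1]
  refine sub_mem hFm (sum_mem fun χ hχ => ?_)
  obtain ⟨m, hm⟩ := exists_nat_classInner hFc χ
  by_cases h0 : Cfsg.classInner F (χ : H → ℂ) = 0
  · rw [h0, zero_smul]; exact zero_mem _
  · rw [hm, Nat.cast_smul_eq_nsmul]
    exact AddSubgroup.nsmul_mem _ (hrest χ (Finset.ne_of_mem_erase hχ) h0) _

theorem one_mem_elemSpan_of_quasiElem {H : Type u} [Group H] [Fintype H] {p : ℕ} (hp : p.Prime)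
    (hH : IsQuasiElem p H) : (fun _ : H => (1 : ℂ)) ∈ elemSpan H :=
  one_mem_elemSpan_aux (Nat.card H) H rfl p hp hH

end Cfsg.Agent.Char
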